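import Cfsg.Agent.OddHalf.LieOddFam
import Cfsg.Agent.Lib.PSL2Four
import Cfsg.Agent.S1069

/-!
# Elementary abelian 2-subgroups of `PSL(2,q)` and of the Ree groups (helper126, market task 181 of helper762)
-/

set_option autoImplicit false

namespace Cfsg.Agent.H126.ElemSixteen

open Matrix Cfsg.Agent.ClassicalGeometry.QuatPair Cfsg.Agent.ClassicalGeometry.KleinCount
open Cfsg.Agent.ClassicalGeometry.PSL2Klein

section PSL

variable {F : Type*} [Field F]

local notation "SL2" => Matrix.SpecialLinearGroup (Fin 2)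
local notation "PSL2" => Matrix.ProjectiveSpecialLinearGroup (Fin 2)

theorem mk_eq_one_of_scalar {C : SL2 F} {r : F} (h : C.1 = r • (1 : Matrix (Fin 2) (Fin 2) F)) :
    (mk C : PSL2 F) = 1 := by
  rw [mk_eq_one]
  have hd := C.2
  rw [h, det_smul, det_one, Fintype.card_fin, mul_one, sq_eq_one_iff] at hd
  rcases hd with rfl | rfl
  · left
    exact Subtype.ext (by rw [h]; simp)
  · right
    exact Subtype.ext (by rw [h]; simp)

/-- a four-group of `PSL(2,F)`, `F` of odd characteristic, is its own centralizer -/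
theorem eq_of_comm (h2 : (2 : F) ≠ 0) {a b c : PSL2 F} (h : CommInv a b) (hca : c * a = a * c)
    (hcb : c * b = b * c) : c = 1 ∨ c = a ∨ c = b ∨ c = a * b := by
  obtain ⟨A, rfl⟩ := QuotientGroup.mk_surjective a
  obtain ⟨B, rfl⟩ := QuotientGroup.mk_surjective b
  obtain ⟨C, rfl⟩ := QuotientGroup.mk_surjective c
  have hp := (commInv_iff h2).1 h
  have hc : ∀ X : SL2 F, mk C * mk X = mk X * mk C → C.1 * X.1 = X.1 * C.1 ∨ C.1 * X.1 = -(X.1 * C.1) := by
    intro X hX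
    have h3 : mk (C * X) = mk (X * C) := hX
    rcases mk_eq_mk.1 h3 with h4 | h4
    · exact Or.inl (congrArg Subtype.val h4)
    · exact Or.inr (congrArg Subtype.val h4)
  have anti' : B.1 * A.1 = -(A.1 * B.1) := by rw [hp.anti, neg_neg]
  -- if `x * c = 1` for an involution `x` then `c = x`
  have inv_of : ∀ x y : PSL2 F, x * x = 1 → x * y = 1 → y = x := fun x y hx hxy => by
    have h5 : x * y = x * x := by rw [hx, hxy]
    exact mul_left_cancel h5
  rcases hc A hca with hA | hA <;> rcases hc B hcb with hB | hB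
  · left
    obtain ⟨r, hr⟩ := Cfsg.Agent.Lib.PSL2Four.scalar_of_comm h2 hp hA hB
    exact mk_eq_one_of_scalar hr
  · right; left
    apply inv_of _ _ h.xx
    have e1 : (A * C).1 * A.1 = A.1 * (A * C).1 := by
      change A.1 * C.1 * A.1 = A.1 * (A.1 * C.1)
      rw [mul_assoc, hA]
    have e2 : (A * C).1 * B.1 = B.1 * (A * C).1 := by
      change A.1 * C.1 * B.1 = B.1 * (A.1 * C.1)
      rw [mul_assoc, hB, mul_neg, ← mul_assoc, ← mul_assoc, anti', neg_mul]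
    obtain ⟨r, hr⟩ := Cfsg.Agent.Lib.PSL2Four.scalar_of_comm h2 hp e1 e2
    exact mk_eq_one_of_scalar hr
  · right; right; left
    apply inv_of _ _ h.yy
    have e1 : (B * C).1 * A.1 = A.1 * (B * C).1 := by
      change B.1 * C.1 * A.1 = A.1 * (B.1 * C.1)
      rw [mul_assoc, hA, mul_neg, ← mul_assoc, ← mul_assoc, anti', neg_mul, neg_neg]
    have e2 : (B * C).1 * B.1 = B.1 * (B * C).1 := by
      change B.1 * C.1 * B.1 = B.1 * (B.1 * C.1)
      rw [mul_assoc, hB]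
    obtain ⟨r, hr⟩ := Cfsg.Agent.Lib.PSL2Four.scalar_of_comm h2 hp e1 e2
    exact mk_eq_one_of_scalar hr
  · right; right; right
    apply inv_of _ _ (by
      rw [mul_assoc, ← mul_assoc (QuotientGroup.mk B : PSL2 F), ← h.comm, mul_assoc, h.yy, mul_one, h.xx])
    have e1 : (A * B * C).1 * A.1 = A.1 * (A * B * C).1 := by
      change A.1 * B.1 * C.1 * A.1 = A.1 * (A.1 * B.1 * C.1)
      calc A.1 * B.1 * C.1 * A.1 = A.1 * B.1 * (C.1 * A.1) := by rw [mul_assoc (A.1 * B.1)]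
        _ = -(A.1 * (B.1 * A.1) * C.1) := by rw [hA, mul_neg, ← mul_assoc, mul_assoc A.1]
        _ = _ := by rw [anti', mul_neg, neg_mul, neg_neg]; simp only [mul_assoc]
    have e2 : (A * B * C).1 * B.1 = B.1 * (A * B * C).1 := by
      change A.1 * B.1 * C.1 * B.1 = B.1 * (A.1 * B.1 * C.1)
      calc A.1 * B.1 * C.1 * B.1 = A.1 * B.1 * (C.1 * B.1) := by rw [mul_assoc (A.1 * B.1)]
        _ = -(A.1 * B.1) * B.1 * C.1 := by rw [hB, mul_neg, ← mul_assoc, neg_mul, neg_mul]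
        _ = _ := by rw [← anti']; simp only [mul_assoc]
    obtain ⟨r, hr⟩ := Cfsg.Agent.Lib.PSL2Four.scalar_of_comm h2 hp e1 e2
    exact mk_eq_one_of_scalar hr

theorem no_elem_psl (h2 : (2 : F) ≠ 0) (A : Subgroup (PSL2 F)) (hA : ∀ x ∈ A, x * x = 1) :
    Nat.card A ≤ 4 := by
  classical
  have hcomm : ∀ x ∈ A, ∀ y ∈ A, x * y = y * x := by
    intro x hx y hy
    have h1 := hA _ (A.mul_mem hx hy)
    have h3 : x⁻¹ = x := inv_eq_of_mul_eq_one_left (hA x hx)
    have h4 : y⁻¹ = y := inv_eq_of_mul_eq_one_left (hA y hy)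
    have h5 : (x * y)⁻¹ = x * y := inv_eq_of_mul_eq_one_left h1
    rw [_root_.mul_inv_rev, h3, h4] at h5
    exact h5.symm
  by_contra hcon
  push Not at hcon
  have hsub : ∀ t : Finset (PSL2 F), t.card ≤ 4 → ¬ ∀ x ∈ A, x ∈ t := by
    intro t ht hall
    have h3 : Nat.card A ≤ Nat.card t := Nat.card_le_card_of_injective
      (fun x : A => (⟨x.1, hall x.1 x.2⟩ : t)) (fun x y hxy => Subtype.ext (congrArg (fun z : t => (z : PSL2 F)) hxy))
    rw [Nat.card_eq_fintype_card (α := t), Fintype.card_coe] at h3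
    omega
  obtain ⟨a, haA, ha⟩ : ∃ a ∈ A, a ≠ 1 := by
    by_contra hc
    push Not at hc
    exact hsub {1} (by simp) (fun x hx => by simp [hc x hx])
  obtain ⟨b, hbA, hb⟩ : ∃ b ∈ A, b ≠ 1 ∧ a ≠ b := by
    by_contra hc
    push Not at hc
    refine hsub {1, a} (Finset.card_le_two.trans (by norm_num)) (fun x hx => ?_)
    by_cases hx1 : x = 1
    · simp [hx1]
    · simp [hc x hx hx1]
  have hci : CommInv a b := ⟨ha, hb.1, hb.2, hA a haA, hA b hbA, hcomm a haA b hbA⟩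
  refine hsub {1, a, b, a * b} Finset.card_le_four (fun x hx => ?_)
  rcases eq_of_comm h2 hci (hcomm x hx a haA) (hcomm x hx b hbA) with h | h | h | h <;> simp [h]

end PSL

theorem two_ne_zero_of_odd {F : Type*} [Field F] [Fintype F] (h : Odd (Fintype.card F)) : (2 : F) ≠ 0 := by
  intro h2
  have hc : CharP F 2 := CharTwo.of_one_ne_zero_of_two_eq_zero one_ne_zero h2
  obtain ⟨n, -, hn⟩ := FiniteField.card F 2
  rw [hn] at h
  have : Even ((2 : ℕ) ^ (n : ℕ)) := (Nat.even_pow.2 ⟨even_two, n.pos.ne'⟩)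
  exact (Nat.not_even_iff_odd.2 h) this

theorem map_hyp {G H : Type*} [Group G] [Group H] (e : G ≃* H) (A : Subgroup G)
    (hA : ∀ x ∈ A, x * x = 1) : (∀ x ∈ A.map e.toMonoidHom, x * x = 1) ∧
      Nat.card (A.map e.toMonoidHom) = Nat.card A := by
  constructor
  · rintro _ ⟨x, hx, rfl⟩
    rw [← map_mul, hA x hx, map_one]
  · exact Nat.card_congr (A.equivMapOfInjective e.toMonoidHom e.injective).symm.toEquiv

theorem not_sixteen_dvd (m : ℕ) : ¬ 16 ∣ (3 ^ (2 * m + 1)) ^ 3 * (3 ^ (2 * m + 1) - 1) *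
    ((3 ^ (2 * m + 1)) ^ 3 + 1) := by
  have h9 : ∀ m : ℕ, 3 ^ (2 * m + 1) % 8 = 3 := by
    intro m
    rw [pow_succ, pow_mul, Nat.mul_mod, Nat.pow_mod]
    norm_num
  obtain ⟨j, hj⟩ : ∃ j, 3 ^ (2 * m + 1) = 8 * j + 3 := ⟨3 ^ (2 * m + 1) / 8, by have := h9 m; omega⟩
  rw [hj]
  have e1 : 8 * j + 3 - 1 = 2 * (4 * j + 1) := by omega
  rw [e1]
  intro h
  have e3 : (8 * j + 3) ^ 3 + 1 = 4 * (128 * j ^ 3 + 144 * j ^ 2 + 54 * j + 7) := by ring
  rw [e3] at h
  have e4 : (8 * j + 3) ^ 3 * (2 * (4 * j + 1)) * (4 * (128 * j ^ 3 + 144 * j ^ 2 + 54 * j + 7)) =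
      8 * ((8 * j + 3) ^ 3 * (4 * j + 1) * (128 * j ^ 3 + 144 * j ^ 2 + 54 * j + 7)) := by ring
  rw [e4, show 16 = 8 * 2 by norm_num] at h
  have h5 := Nat.dvd_of_mul_dvd_mul_left (by norm_num) h
  have o1 : Odd ((8 * j + 3) ^ 3 * (4 * j + 1) * (128 * j ^ 3 + 144 * j ^ 2 + 54 * j + 7)) := by
    refine ((Odd.pow ⟨4 * j + 1, by ring⟩).mul ⟨2 * j, by ring⟩).mul
      ⟨64 * j ^ 3 + 72 * j ^ 2 + 27 * j + 3, by ring⟩
  exact (Nat.not_even_iff_odd.2 o1) (even_iff_two_dvd.2 h5)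

theorem no_elem16 {G : Type*} [Group G] [Finite G] (h : Cfsg.Agent.OddHalf.LieOddFam.XL27 G ∨
    Cfsg.Agent.OddHalf.LieOddFam.XL2Big G ∨ Cfsg.Lie.IsoRee G) (A : Subgroup G)
    (hA : ∀ x ∈ A, x * x = 1) (hc : 16 ≤ Nat.card A) : False := by
  rcases h with ⟨F, _, _, hF, ⟨e⟩⟩ | ⟨F, _, _, hF, -, ⟨e⟩⟩ | ⟨K, _, _, m, -, hK, ⟨e⟩⟩
  · obtain ⟨h1, h2⟩ := map_hyp e A hA
    have h3 := no_elem_psl (two_ne_zero_of_odd (by rw [hF]; decide)) _ h1
    rw [h2] at h3
    omega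
  · obtain ⟨h1, h2⟩ := map_hyp e A hA
    have h3 := no_elem_psl (two_ne_zero_of_odd hF) _ h1
    rw [h2] at h3
    omega
  · have hp : IsPGroup 2 A := by
      intro x
      refine ⟨1, ?_⟩
      rw [pow_one, pow_two]
      exact Subtype.ext (hA x x.2)
    obtain ⟨n, hn⟩ := IsPGroup.iff_card.1 hp
    have h4 : 4 ≤ n := by
      by_contra hcon
      have h5 : n ≤ 3 := by omega
      have h6 : (2 : ℕ) ^ n ≤ 2 ^ 3 := Nat.pow_le_pow_right (by norm_num) h5
      rw [hn] at hc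
      omega
    apply not_sixteen_dvd m
    rw [← Cfsg.Agent.S1069.result hK, ← Nat.card_congr e.toEquiv]
    have h7 : (16 : ℕ) ∣ Nat.card A := by
      rw [hn]; exact (pow_dvd_pow 2 h4)
    exact h7.trans (Subgroup.card_subgroup_dvd_card A)

end Cfsg.Agent.H126.ElemSixteen
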