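import Cfsg.Agent.OddHalf.Known
import Cfsg.Agent.NotCT.Orders

/-!
# 2-parts of the sporadic orders (helper126, market task 179 of helper762)
-/

set_option autoImplicit false

namespace Cfsg.Agent.H126.SporVal

open Cfsg Cfsg.Agent.NotCT

theorem key {N : ℕ} (c : (2 ^ 12 ∣ N ∧ ¬ 2 ^ 13 ∣ N) ∨ (2 ^ 36 ∣ N ∧ ¬ 2 ^ 37 ∣ N) ∨ 2 ^ 60 ∣ N → False)
    (m : ℕ) (h1 : 2 ^ (12 * (2 * m + 1)) ∣ N) (h2 : ¬ 2 ^ (12 * (2 * m + 1) + 1) ∣ N) : False := by
  rcases Nat.lt_or_ge m 2 with hm | hm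
  · interval_cases m
    · exact c (Or.inl ⟨h1, h2⟩)
    · exact c (Or.inr (Or.inl ⟨h1, h2⟩))
  · exact c (Or.inr (Or.inr ((pow_dvd_pow 2 (by omega)).trans h1)))

theorem spor_two {G : Type*} [Group G] (h : Cfsg.IsSporadicGroup G ∨ Cfsg.Lie.IsoTits G) (m : ℕ)
    (h1 : 2 ^ (12 * (2 * m + 1)) ∣ Nat.card G) (h2 : ¬ 2 ^ (12 * (2 * m + 1) + 1) ∣ Nat.card G) : False := by
  refine key (N := Nat.card G) ?_ m h1 h2
  clear h1 h2
  rcases h with (h | h | h | h | h | h | h | h | h | h | h | h | h | h | h | h | h | h | h | h | h | h |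
    h | h | h | h) | h
  · rw [Orders.m11 h]; norm_num
  · rw [Orders.m12 h]; norm_num
  · rw [Orders.m22 h]; norm_num
  · rw [Orders.m23 h]; norm_num
  · rw [Orders.m24 h]; norm_num
  · rw [Orders.j1 h]; norm_num
  · rw [Orders.j2 h]; norm_num
  · rw [Orders.j3 h]; norm_num
  · rw [Orders.j4 h]; norm_num
  · rw [Orders.co1 h]; norm_num
  · rw [Orders.co2 h]; norm_num
  · rw [Orders.co3 h]; norm_num
  · rw [Orders.mcl h]; norm_num
  · rw [Orders.hs h]; norm_num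
  · rw [Orders.suz h]; norm_num
  · rw [Orders.he h]; norm_num
  · rw [Orders.ru h]; norm_num
  · rw [Orders.on h]; norm_num
  · rw [Orders.ly h]; norm_num
  · rw [Orders.fi22 h]; norm_num
  · rw [Orders.fi23 h]; norm_num
  · rw [Orders.fi24 h]; norm_num
  · rw [Orders.hn h]; norm_num
  · rw [Orders.th h]; norm_num
  · rw [Orders.b h]; norm_num
  · rw [Orders.m h]; norm_num
  · rw [Orders.tits h]; norm_num

end Cfsg.Agent.H126.SporVal
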