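import Cfsg.Agent.H538.StarSix

/-!
# Counting in the 2-transitive case (helper126, market task 98 of helper538)
-/

set_option autoImplicit false

open scoped Pointwise

namespace Cfsg.Agent.H126.StarTwoTrans

open Cfsg.Agent.H538.RealGraph Cfsg.Agent.H538.SM

/-- arithmetic -/
theorem pow_arith {a b c n : ℕ} (ha : 0 < a) (hbc : b < c) (hcn : c ≤ n)
    (h : (2 ^ a - 1) * (2 ^ c - 1) = (2 ^ n - 1) * (2 ^ b - 1)) : n = c := by
  have h1 : ∀ k : ℕ, 1 ≤ 2 ^ k := fun k => Nat.one_le_two_pow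
  have hb : 0 < b := by
    rcases Nat.eq_zero_or_pos b with h0 | h0
    · exfalso
      rw [h0, pow_zero, Nat.sub_self, mul_zero] at h
      rcases Nat.mul_eq_zero.1 h with h2 | h2
      · have := Nat.one_lt_two_pow ha.ne'
        omega
      · have := Nat.one_lt_two_pow (show c ≠ 0 by omega)
        omega
    · exact h0
  obtain ⟨A, hA⟩ : ∃ A, 2 ^ a = A + 1 := ⟨2 ^ a - 1, by have := h1 a; omega⟩
  obtain ⟨C, hC⟩ : ∃ C, 2 ^ c = C + 1 := ⟨2 ^ c - 1, by have := h1 c; omega⟩
  obtain ⟨N, hN⟩ : ∃ N, 2 ^ n = N + 1 := ⟨2 ^ n - 1, by have := h1 n; omega⟩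
  obtain ⟨B, hB⟩ : ∃ B, 2 ^ b = B + 1 := ⟨2 ^ b - 1, by have := h1 b; omega⟩
  have key : 2 ^ (a + c) + 2 ^ n + 2 ^ b = 2 ^ (n + b) + 2 ^ a + 2 ^ c := by
    rw [pow_add, pow_add, hA, hC, hN, hB]
    rw [hA, hC, hN, hB] at h
    simp only [Nat.add_sub_cancel] at h
    nlinarith
  rcases lt_trichotomy a b with hab | hab | hab
  · exfalso
    have hL : 2 ^ (a + 1) ∣ 2 ^ (a + c) + 2 ^ n + 2 ^ b :=
      Nat.dvd_add (Nat.dvd_add (pow_dvd_pow 2 (by omega)) (pow_dvd_pow 2 (by omega)))
        (pow_dvd_pow 2 (by omega))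
    rw [key] at hL
    have h2 : 2 ^ (a + 1) ∣ 2 ^ (n + b) + 2 ^ c :=
      Nat.dvd_add (pow_dvd_pow 2 (by omega)) (pow_dvd_pow 2 (by omega))
    have h3 : 2 ^ (n + b) + 2 ^ a + 2 ^ c = (2 ^ (n + b) + 2 ^ c) + 2 ^ a := by ring
    rw [h3] at hL
    have h4 := (Nat.dvd_add_right h2).1 hL
    have h5 := Nat.le_of_dvd (by positivity) h4
    rw [pow_succ] at h5
    have := h1 a
    omega
  · subst hab
    rw [mul_comm (2 ^ n - 1)] at h
    have h2 : 0 < 2 ^ a - 1 := by
      have := Nat.one_lt_two_pow ha.ne'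
      omega
    have h3 := Nat.eq_of_mul_eq_mul_left h2 h
    have h4 : 2 ^ c = 2 ^ n := by
      have := h1 c
      have := h1 n
      omega
    exact (Nat.pow_right_injective (le_refl 2) h4).symm
  · exfalso
    have hR : 2 ^ (b + 1) ∣ 2 ^ (n + b) + 2 ^ a + 2 ^ c :=
      Nat.dvd_add (Nat.dvd_add (pow_dvd_pow 2 (by omega)) (pow_dvd_pow 2 (by omega)))
        (pow_dvd_pow 2 (by omega))
    rw [← key] at hR
    have h2 : 2 ^ (b + 1) ∣ 2 ^ (a + c) + 2 ^ n :=
      Nat.dvd_add (pow_dvd_pow 2 (by omega)) (pow_dvd_pow 2 (by omega))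
    have h4 := (Nat.dvd_add_right h2).1 hR
    have h5 := Nat.le_of_dvd (by positivity) h4
    rw [pow_succ] at h5
    have := h1 b
    omega

variable {G W : Type*} [Group G] [AddCommGroup W] [DistribMulAction G W]

/-- the vectors fixed by `P` modulo `V P` -/
def X2 (W : Type*) [AddCommGroup W] [DistribMulAction G W] (P : Subgroup G) : AddSubgroup W where
  carrier := {w | ∀ s ∈ P, s • w - w ∈ V W P}
  zero_mem' := fun s _ => by rw [smul_zero, sub_zero]; exact (V W P).zero_mem
  add_mem' := fun {a b} ha hb s hs => by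
    have : s • (a + b) - (a + b) = (s • a - a) + (s • b - b) := by rw [smul_add]; abel
    rw [this]
    exact (V W P).add_mem (ha s hs) (hb s hs)
  neg_mem' := fun {a} ha s hs => by
    have : s • (-a) - (-a) = -(s • a - a) := by rw [smul_neg]; abel
    rw [this]
    exact (V W P).neg_mem (ha s hs)

theorem mem_X2 {P : Subgroup G} {w : W} : w ∈ X2 W P ↔ ∀ s ∈ P, s • w - w ∈ V W P := Iff.rfl

theorem V_le_X2 (P : Subgroup G) : V W P ≤ X2 W P := by
  intro w hw s hs
  rw [hw s hs, sub_self]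
  exact (V W P).zero_mem

theorem smul_V_of_fix {P : Sylow 2 G} {g : G} (hg : g • P = P) {w : W}
    (hw : w ∈ V W (P : Subgroup G)) : g • w ∈ V W (P : Subgroup G) := by
  have := smul_mem_V hw g
  rwa [hg] at this

theorem smul_X2_of_fix {P : Sylow 2 G} {g : G} (hg : g • P = P) {w : W}
    (hw : w ∈ X2 W (P : Subgroup G)) : g • w ∈ X2 W (P : Subgroup G) := by
  intro s hs
  have h1 : g⁻¹ * s * g ∈ (P : Subgroup G) := by
    have hg' : g⁻¹ • P = P := by rw [inv_smul_eq_iff, hg]
    have h2 : MulAut.conj g⁻¹ • s ∈ MulAut.conj g⁻¹ • (P : Subgroup G) :=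
      Subgroup.smul_mem_pointwise_smul s _ _ hs
    rw [← Sylow.coe_subgroup_smul, hg', MulAut.smul_def, MulAut.conj_apply, inv_inv] at h2
    exact h2
  have h2 := smul_V_of_fix hg (hw _ h1)
  have h3 : g • ((g⁻¹ * s * g) • w - w) = s • g • w - g • w := by
    rw [smul_sub, smul_smul, smul_smul]
    congr 2
    group
  rwa [h3] at h2

/-- the action of `P` on `W / V P` -/
theorem exists_X2 [Finite W] (P : Subgroup G) (hP : IsPGroup 2 P) (h2 : ∀ w : W, w + w = 0)
    (hV : V W P ≠ ⊤) : ∃ w ∈ X2 W P, w ∉ V W P := by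
  classical
  have hpres : ∀ s ∈ P, ∀ v ∈ V W P, s • v ∈ V W P := by
    intro s hs v hv
    rw [hv s hs]; exact hv
  let act : P → (W ⧸ V W P) → (W ⧸ V W P) := fun s =>
    QuotientAddGroup.map (V W P) (V W P) (DistribSMul.toAddMonoidHom W (s : G))
      (fun v hv => hpres s s.2 v hv)
  have hact : ∀ (s : P) (w : W), act s (QuotientAddGroup.mk w) = QuotientAddGroup.mk ((s : G) • w) :=
    fun s w => rfl
  letI : MulAction P (W ⧸ V W P) :=
    { smul := fun s x => act s x
      one_smul := by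
        intro x
        induction x using QuotientAddGroup.induction_on with
        | H w => change act 1 _ = _; rw [hact]; simp
      mul_smul := by
        intro s t x
        induction x using QuotientAddGroup.induction_on with
        | H w =>
          change act (s * t) _ = act s (act t _)
          rw [hact, hact, hact]
          congr 1
          rw [Subgroup.coe_mul, mul_smul] }
  have hsm : ∀ (s : P) (w : W), s • (QuotientAddGroup.mk w : W ⧸ V W P) =
      QuotientAddGroup.mk ((s : G) • w) := fun s w => rfl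
  have hmod := hP.card_modEq_card_fixedPoints (W ⧸ V W P)
  -- `2` divides the order of the quotient
  have hdiv : 2 ∣ Nat.card (W ⧸ V W P) := by
    obtain ⟨k, hk⟩ := card_pow_two h2 (⊤ : AddSubgroup W)
    rw [Nat.card_congr AddSubgroup.topEquiv.toEquiv] at hk
    have h3 : Nat.card (W ⧸ V W P) ∣ 2 ^ k := by
      rw [← hk]
      exact AddSubgroup.card_quotient_dvd_card _
    obtain ⟨j, hj, hj'⟩ := (Nat.dvd_prime_pow Nat.prime_two).1 h3
    rw [hj']
    rcases Nat.eq_zero_or_pos j with h0 | h0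
    · exfalso
      apply hV
      rw [← AddSubgroup.index_eq_one]
      rw [h0, pow_zero] at hj'
      exact hj'
    · exact dvd_pow_self 2 h0.ne'
  have hfix2 : 2 ∣ Nat.card (MulAction.fixedPoints P (W ⧸ V W P)) := by
    rw [Nat.dvd_iff_mod_eq_zero] at hdiv ⊢
    rw [← hmod]; exact hdiv
  have h0 : (0 : W ⧸ V W P) ∈ MulAction.fixedPoints P (W ⧸ V W P) := by
    intro s
    have := hsm s 0
    rw [smul_zero] at this
    exact this
  obtain ⟨x, hx⟩ : ∃ x : MulAction.fixedPoints P (W ⧸ V W P), x ≠ ⟨0, h0⟩ := by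
    by_contra hcon
    push Not at hcon
    have : Nat.card (MulAction.fixedPoints P (W ⧸ V W P)) = 1 := by
      rw [Nat.card_eq_one_iff_unique]
      exact ⟨⟨fun a b => by rw [hcon a, hcon b]⟩, ⟨⟨0, h0⟩⟩⟩
    rw [this] at hfix2
    omega
  obtain ⟨w, hw⟩ := QuotientAddGroup.mk_surjective (x : W ⧸ V W P)
  refine ⟨w, ?_, ?_⟩
  · intro s hs
    have h4 := x.2 ⟨s, hs⟩
    rw [← hw, hsm] at h4
    have h5 := QuotientAddGroup.eq.1 h4.symm
    rw [neg_add_eq_sub] at h5
    exact h5
  · intro hwV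
    apply hx
    apply Subtype.ext
    rw [← hw]
    exact (QuotientAddGroup.eq_zero_iff w).2 hwV

/-- counting an additive subgroup by its intersections with the `V Q` -/
theorem card_sub_one [Finite G] [Finite W] (h : SMod G W) (U : AddSubgroup W) :
    Nat.card U - 1 = ∑ᶠ Q : Sylow 2 G, (Nat.card (U ⊓ V W (Q : Subgroup G) : AddSubgroup W) - 1) := by
  classical
  have := Fintype.ofFinite (Sylow 2 G)
  rw [← card_ne (0 : U)]
  have e : (Σ Q : Sylow 2 G, {v : (U ⊓ V W (Q : Subgroup G) : AddSubgroup W) // v ≠ 0}) ≃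
      {u : U // u ≠ 0} := by
    refine Equiv.ofBijective (fun p => ⟨⟨((p.2.1 : (U ⊓ V W (p.1 : Subgroup G) : AddSubgroup W)) : W),
      p.2.1.2.1⟩, fun h0 => p.2.2 (Subtype.ext (congrArg (fun u : U => (u : W)) h0))⟩) ⟨?_, ?_⟩
    · rintro ⟨Q, ⟨⟨v, hv⟩, hv0⟩⟩ ⟨Q', ⟨⟨v', hv'⟩, hv0'⟩⟩ hvv
      have h1 : v = v' := congrArg (fun u : {u : U // u ≠ 0} => ((u : U) : W)) hvv
      subst h1
      have h2 : v ≠ 0 := fun h0 => hv0 (Subtype.ext h0)
      have h3 : Q = Q' := h.sylow_unique h2 hv.2 hv'.2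
      subst h3
      rfl
    · rintro ⟨⟨u, hu⟩, hu0⟩
      have hu0' : u ≠ 0 := fun h0 => hu0 (Subtype.ext h0)
      obtain ⟨Q, hQ⟩ := h.exists_sylow hu0'
      exact ⟨⟨Q, ⟨⟨u, hu, hQ⟩, fun h0 => hu0' (congrArg Subtype.val h0)⟩⟩, rfl⟩
  rw [← Nat.card_congr e, Nat.card_sigma, finsum_eq_sum_of_fintype]
  exact Finset.sum_congr rfl (fun Q _ => card_ne _)

theorem card_sq_of_two_transitive [Finite G] [Finite W]
    (h : SMod G W) (hne : ∃ w : W, w ≠ 0) {z : G} (hz : orderOf z = 2)
    (h2 : MulAction.IsMultiplyPretransitive G (Sylow 2 G) 2) (P : Sylow 2 G) :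
    Nat.card (V W (P : Subgroup G)) ^ 2 = Nat.card W := by
  classical
  have hft := Fintype.ofFinite (Sylow 2 G)
  obtain ⟨m, c, hW, hV, hc0, hcm, hm0, hfx⟩ := h.params hne hz P
  suffices hmc : c = m by
    rw [hV, hW, hmc, ← pow_mul, mul_comm]
  have hcle : c ≤ m := Nat.le_of_dvd hm0 hcm
  have hVtop : V W (P : Subgroup G) ≠ ⊤ := by
    intro ht
    have h3 : Nat.card (V W (P : Subgroup G)) = Nat.card W := by
      rw [ht, Nat.card_congr AddSubgroup.topEquiv.toEquiv]
    rw [hV, hW] at h3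
    have := Nat.pow_right_injective (le_refl 2) h3
    omega
  set X := X2 W (P : Subgroup G) with hX
  obtain ⟨w₀, hw₀X, hw₀V⟩ := exists_X2 (P : Subgroup G) P.isPGroup' h.two hVtop
  obtain ⟨e, he⟩ := card_pow_two h.two X
  have hVX : V W (P : Subgroup G) ≤ X := V_le_X2 _
  have hce : c < e := by
    have h3 : V W (P : Subgroup G) < X := lt_of_le_of_ne hVX (fun h4 => hw₀V (h4 ▸ hw₀X))
    have h4 : Nat.card (V W (P : Subgroup G)) < Nat.card X := by
      rcases lt_or_ge (Nat.card (V W (P : Subgroup G))) (Nat.card X) with h5 | h5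
      · exact h5
      · exact absurd (AddSubgroup.eq_of_le_of_card_ge hVX h5) h3.ne
    rw [hV, he] at h4
    exact (Nat.pow_lt_pow_iff_right (by norm_num)).1 h4
  -- all intersections have the same order
  have hcard : ∀ R R' : Sylow 2 G, R ≠ P → R' ≠ P →
      Nat.card (X ⊓ V W (R : Subgroup G) : AddSubgroup W) =
      Nat.card (X ⊓ V W (R' : Subgroup G) : AddSubgroup W) := by
    intro R R' hR hR'
    obtain ⟨g, hgP, hgR⟩ := (MulAction.is_two_pretransitive_iff.1 h2) hR.symm hR'.symm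
    have hgP' : g⁻¹ • P = P := by rw [inv_smul_eq_iff, hgP]
    have hgR' : g⁻¹ • R' = R := by rw [inv_smul_eq_iff, hgR]
    refine Nat.card_congr ⟨fun v => ⟨g • (v : W), smul_X2_of_fix hgP v.2.1, ?_⟩,
      fun v => ⟨g⁻¹ • (v : W), smul_X2_of_fix hgP' v.2.1, ?_⟩, fun v => ?_, fun v => ?_⟩
    · have := smul_mem_V v.2.2 g
      rwa [hgR] at this
    · have := smul_mem_V v.2.2 g⁻¹
      rwa [hgR'] at this
    · exact Subtype.ext (inv_smul_smul g _)
    · exact Subtype.ext (smul_inv_smul g _)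
  -- the number of Sylow subgroups
  have hN := h.card_W P
  rw [hW, hV] at hN
  have hpow1 : ∀ k : ℕ, 1 ≤ 2 ^ k := fun k => Nat.one_le_two_pow
  have hN1 : 1 < Nat.card (Sylow 2 G) := by
    by_contra hcon
    have h3 : Nat.card (Sylow 2 G) = 1 := by
      have : 0 < Nat.card (Sylow 2 G) := Nat.card_pos
      omega
    rw [h3, one_mul] at hN
    have h4 : 2 ^ (2 * m) = 2 ^ c := by
      have := hpow1 (2 * m)
      have := hpow1 c
      omega
    have := Nat.pow_right_injective (le_refl 2) h4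
    omega
  obtain ⟨R, hRP⟩ : ∃ R : Sylow 2 G, R ≠ P := by
    by_contra hcon
    push Not at hcon
    have : Nat.card (Sylow 2 G) = 1 := by
      rw [Nat.card_eq_one_iff_unique]
      exact ⟨⟨fun a b => by rw [hcon a, hcon b]⟩, ⟨P⟩⟩
    omega
  obtain ⟨b, hb⟩ := card_pow_two h.two (X ⊓ V W (R : Subgroup G))
  have hbc : b ≤ c := by
    have h3 : Nat.card (X ⊓ V W (R : Subgroup G) : AddSubgroup W) ≤
        Nat.card (V W (R : Subgroup G)) := Nat.card_le_card_of_injective
          (AddSubgroup.inclusion inf_le_right) (AddSubgroup.inclusion_injective _)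
    rw [hb, card_V_eq R P, hV] at h3
    exact (Nat.pow_le_pow_iff_right (by norm_num)).1 h3
  rcases hbc.lt_or_eq with hbc | hbc
  · -- counting
    have h3 := card_sub_one h X
    rw [finsum_eq_sum_of_fintype, ← Finset.add_sum_erase _ _ (Finset.mem_univ P)] at h3
    have h4 : ∀ Q ∈ (Finset.univ : Finset (Sylow 2 G)).erase P,
        Nat.card (X ⊓ V W (Q : Subgroup G) : AddSubgroup W) - 1 = 2 ^ b - 1 := by
      intro Q hQ
      rw [hcard Q R (Finset.ne_of_mem_erase hQ) hRP, hb]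
    rw [Finset.sum_congr rfl h4, Finset.sum_const, smul_eq_mul,
      Finset.card_erase_of_mem (Finset.mem_univ _), Finset.card_univ, ← Nat.card_eq_fintype_card,
      inf_eq_right.2 hVX, hV, he] at h3
    have h5 : (2 ^ (e - c) - 1) * (2 ^ c - 1) = (2 ^ (2 * m - c) - 1) * (2 ^ b - 1) := by
      obtain ⟨a, rfl⟩ : ∃ a, e = c + a := ⟨e - c, by omega⟩
      obtain ⟨n, hn⟩ : ∃ n, 2 * m = c + n := ⟨2 * m - c, by omega⟩
      rw [hn] at hN ⊢
      simp only [Nat.add_sub_cancel_left]
      obtain ⟨A, hA⟩ : ∃ A, 2 ^ a = A + 1 := ⟨2 ^ a - 1, by have := hpow1 a; omega⟩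
      obtain ⟨C, hC⟩ : ∃ C, 2 ^ c = C + 1 := ⟨2 ^ c - 1, by have := hpow1 c; omega⟩
      obtain ⟨D, hD⟩ : ∃ D, 2 ^ n = D + 1 := ⟨2 ^ n - 1, by have := hpow1 n; omega⟩
      obtain ⟨B, hB⟩ : ∃ B, 2 ^ b = B + 1 := ⟨2 ^ b - 1, by have := hpow1 b; omega⟩
      obtain ⟨S, hS⟩ : ∃ S, Nat.card (Sylow 2 G) = S + 1 := ⟨Nat.card (Sylow 2 G) - 1, by omega⟩
      rw [pow_add, hC, hS, hD] at hN
      rw [pow_add, hC, hA, hS, hB] at h3
      rw [hA, hC, hD, hB]
      simp only [Nat.add_sub_cancel] at h3 hN ⊢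
      have e1 : (C + 1) * (A + 1) - 1 = C + (C + 1) * A := by
        have : (C + 1) * (A + 1) = C + (C + 1) * A + 1 := by ring
        omega
      have e2 : (C + 1) * (D + 1) - 1 = C + (C + 1) * D := by
        have : (C + 1) * (D + 1) = C + (C + 1) * D + 1 := by ring
        omega
      rw [e1] at h3
      rw [e2] at hN
      have e3 : (C + 1) * A = S * B := by omega
      have e4 : (C + 1) * D = S * C := by
        have : (S + 1) * C = S * C + C := by ring
        omega
      have e5 : (C + 1) * (A * C) = (C + 1) * (D * B) := by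
        calc (C + 1) * (A * C) = ((C + 1) * A) * C := by ring
          _ = (S * C) * B := by rw [e3]; ring
          _ = ((C + 1) * D) * B := by rw [e4]
          _ = _ := by ring
      exact Nat.eq_of_mul_eq_mul_left (Nat.succ_pos C) e5
    have h6 := pow_arith (by omega) hbc (by omega) h5
    omega
  · -- all of `W`
    have hall : ∀ Q : Sylow 2 G, V W (Q : Subgroup G) ≤ X := by
      intro Q
      by_cases hQ : Q = P
      · rw [hQ]; exact hVX
      · have h3 := hcard Q R hQ hRP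
        rw [hb, hbc, ← hV, card_V_eq P Q] at h3
        have h4 := AddSubgroup.eq_of_le_of_card_ge
          (inf_le_right : (X ⊓ V W (Q : Subgroup G) : AddSubgroup W) ≤ V W (Q : Subgroup G)) h3.ge
        exact inf_eq_right.1 h4
    have hXtop : X = ⊤ := by
      rw [eq_top_iff]
      intro w _
      by_cases hw : w = 0
      · rw [hw]; exact X.zero_mem
      · obtain ⟨Q, hQ⟩ := h.exists_sylow hw
        exact hall Q hQ
    -- an involution in `P`
    obtain ⟨s, hsP, hs⟩ : ∃ s ∈ P, orderOf s = 2 := by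
      obtain ⟨s, hsP, hs, -⟩ := exists_central_involution hz P
      exact ⟨s, hsP, hs⟩
    let φ : W →+ W :=
      { toFun := fun w => s • w - w
        map_zero' := by simp
        map_add' := fun a b => by rw [smul_add]; abel }
    have hφ : ∀ w, φ w = s • w - w := fun _ => rfl
    have hker : φ.ker = fx W s := by
      ext w
      rw [AddMonoidHom.mem_ker, mem_fx, hφ, sub_eq_zero]
    have hran : φ.range ≤ V W (P : Subgroup G) := by
      rintro _ ⟨w, rfl⟩
      have : w ∈ X := by rw [hXtop]; trivial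
      exact this s hsP
    have h5 := φ.ker.card_mul_index
    rw [AddSubgroup.index_ker, hker] at h5
    have h6 : Nat.card φ.range ≤ Nat.card (V W (P : Subgroup G)) :=
      Nat.card_le_card_of_injective (AddSubgroup.inclusion hran)
        (AddSubgroup.inclusion_injective hran)
    rw [hfx s hs, hW] at h5
    rw [hV] at h6
    have h7 : Nat.card φ.range = 2 ^ m := by
      have h8 : 2 ^ m * Nat.card φ.range = 2 ^ m * 2 ^ m := by
        rw [h5, ← pow_add, two_mul]
      exact Nat.eq_of_mul_eq_mul_left (by positivity) h8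
    rw [h7] at h6
    have := (Nat.pow_le_pow_iff_right (by norm_num)).1 h6
    omega

end Cfsg.Agent.H126.StarTwoTrans
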